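import Mathlib
import Cfsg.Agent.Lib.Schur.Metacyclic

/-! Stem extensions of dihedral and dicyclic groups. -/

set_option autoImplicit false

namespace H78.Schur

open Cfsg

theorem dihedral_closure (n : ℕ) [NeZero n] :
    Subgroup.closure {(DihedralGroup.r 1 : DihedralGroup n), DihedralGroup.sr 0} = ⊤ := by
  rw [eq_top_iff]
  have h1 : ∀ i : ZMod n, DihedralGroup.r i ∈
      Subgroup.closure {(DihedralGroup.r 1 : DihedralGroup n), DihedralGroup.sr 0} := by
    intro i
    obtain ⟨m, rfl⟩ := ZMod.natCast_zmod_surjective i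
    rw [← DihedralGroup.r_one_pow]
    exact Subgroup.pow_mem _ (Subgroup.subset_closure (by simp)) _
  rintro (i | i) -
  · exact h1 i
  · have := Subgroup.mul_mem _ (Subgroup.subset_closure (by simp) : DihedralGroup.sr 0 ∈ _) (h1 i)
    simpa using this

theorem quaternion_closure (n : ℕ) [NeZero n] :
    Subgroup.closure {(QuaternionGroup.a 1 : QuaternionGroup n), QuaternionGroup.xa 0} = ⊤ := by
  rw [eq_top_iff]
  have h1 : ∀ i : ZMod (2 * n), QuaternionGroup.a i ∈
      Subgroup.closure {(QuaternionGroup.a 1 : QuaternionGroup n), QuaternionGroup.xa 0} := by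
    intro i
    obtain ⟨m, rfl⟩ := ZMod.natCast_zmod_surjective i
    rw [← QuaternionGroup.a_one_pow]
    exact Subgroup.pow_mem _ (Subgroup.subset_closure (by simp)) _
  rintro (i | i) -
  · exact h1 i
  · have := Subgroup.mul_mem _ (Subgroup.subset_closure (by simp) : QuaternionGroup.xa 0 ∈ _) (h1 i)
    simpa using this

/-- If `b` inverts `a` and `a ^ N ∈ ⟨b⟩`, kernels of stem extensions have order dividing
`N / orderOf (a ^ 2)`. -/
theorem card_ker_dvd_of_inverts {Δ Q : Type*} [Group Δ] [Group Q] [Finite Δ] {τ : Δ →* Q}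
    (hτ : IsStemExtension τ) {a b : Q} (hgen : Subgroup.closure {a, b} = ⊤)
    (h : b * a * b⁻¹ = a⁻¹) {N : ℕ} (hN : a ^ N ∈ Subgroup.zpowers b) :
    Nat.card τ.ker ∣ N / (orderOf a / Nat.gcd (orderOf a) 2) := by
  have : Finite Q := Finite.of_surjective _ hτ.1
  have h1 : b * a * b⁻¹ = a ^ (orderOf a - 1) := by
    rw [h, eq_comm, ← mul_eq_one_iff_eq_inv, ← pow_succ, Nat.sub_add_cancel (orderOf_pos a),
      pow_orderOf_eq_one]
  obtain ⟨c, h2, h3, h4, -⟩ := exists_metacyclic hτ hgen h1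
  have h5 := card_ker_dvd_of_le_zpowers h3 (h4 N hN)
  have h6 : τ c = (a ^ 2)⁻¹ := by rw [h2, h]; group
  rwa [h6, orderOf_inv, orderOf_pow' _ two_ne_zero] at h5

theorem card_ker_dvd_dihedral (n : ℕ) [NeZero n] {Δ : Type*} [Group Δ] [Finite Δ]
    {τ : Δ →* DihedralGroup n} (hτ : IsStemExtension τ) :
    Nat.card τ.ker ∣ n / (n / Nat.gcd n 2) := by
  have := card_ker_dvd_of_inverts hτ (dihedral_closure n) (by simp) (N := n) (by
    rw [DihedralGroup.r_one_pow_n]; exact one_mem _)
  rwa [DihedralGroup.orderOf_r_one] at this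

end H78.Schur
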