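import Mathlib
import Cfsg.Prelude.Def_KGroupFacts
import Cfsg.Agent.Lib.Schur.Main
import Cfsg.Agent.Lib.Char.Ortho

/-! Schur covers and projective representations. -/

set_option autoImplicit false

namespace H78.Schur

open Cfsg
open scoped commutatorElement

universe u v w

section
variable {F X Q : Type*} [Group F] [Group X] [Group Q]

/-- A homomorphism on `S` killing `S ∩ F'` factors through the image of `S` in `F/F'`. -/
theorem exists_factor_ab {D : Type*} [Group D] (S : Subgroup F) (θ : S →* D)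
    (hθ : ∀ s : S, (s : F) ∈ commutator F → θ s = 1) :
    ∃ θ' : (S.map (Abelianization.of : F →* Abelianization F)) →* D,
      ∀ s : S, θ' ⟨Abelianization.of (s : F), ⟨s, s.2, rfl⟩⟩ = θ s := by
  let j : S →* (S.map (Abelianization.of : F →* Abelianization F)) :=
    (Abelianization.of : F →* Abelianization F).subgroupMap S
  have hj : Function.Surjective j := MonoidHom.subgroupMap_surjective _ _
  have hker : j.ker ≤ θ.ker := by
    intro s hs
    apply hθ
    have h1 : Abelianization.of (s : F) = 1 := congrArg Subtype.val hs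
    rw [← Abelianization.ker_of]
    exact h1
  exact ⟨j.liftOfSurjective hj ⟨θ, hker⟩, fun s => MonoidHom.liftOfRightInverse_comp_apply _ _ _ _ s⟩

theorem exists_extend_ab {D : Type*} [CommGroup D]
    (hD : ∀ n : ℕ, n ≠ 0 → ∀ d : D, ∃ e : D, e ^ n = d) (S : Subgroup F) (θ : S →* D)
    (hθ : ∀ s : S, (s : F) ∈ commutator F → θ s = 1) :
    ∃ μ : F →* D, ∀ s : S, μ s = θ s := by
  obtain ⟨θ', h⟩ := exists_factor_ab S θ hθ
  obtain ⟨μ, hμ⟩ := exists_extend_of_divisible hD (Subgroup.subtype _) (Subgroup.subtype_injective _) θ'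
  refine ⟨μ.comp Abelianization.of, fun s => ?_⟩
  rw [← h s, ← hμ]
  rfl

/-- Twisting a homomorphism by a homomorphism into a central subgroup. -/
def twist (φ : F →* X) (K : Subgroup X) (hK : K ≤ Subgroup.center X) (μ : F →* K) : F →* X where
  toFun f := φ f * (μ f : X)⁻¹
  map_one' := by simp
  map_mul' a b := by
    have h1 := Subgroup.mem_center_iff.1 (hK (K.inv_mem (μ a).2))
    simp only [map_mul, Subgroup.coe_mul, mul_inv_rev]
    calc φ a * φ b * ((μ b : X)⁻¹ * (μ a : X)⁻¹)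
        = φ a * ((φ b * (μ b : X)⁻¹) * (μ a : X)⁻¹) := by group
      _ = φ a * ((μ a : X)⁻¹ * (φ b * (μ b : X)⁻¹)) := by rw [h1]
      _ = _ := by group

theorem twist_apply (φ : F →* X) (K : Subgroup X) (hK : K ≤ Subgroup.center X) (μ : F →* K)
    (f : F) : twist φ K hK μ f = φ f * (μ f : X)⁻¹ := rfl

/-- The commutative group structure on a central subgroup. -/
@[reducible] def centralCommGroup (K : Subgroup X) (hK : K ≤ Subgroup.center X) : CommGroup K :=
  { (inferInstance : Group K) with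
    mul_comm := fun a b => Subtype.ext ((Subgroup.mem_center_iff.1 (hK b.2)) _) }

end

section
variable {Q : Type u} [Group Q] {A : Type*} [CommGroup A]

/-- Homomorphisms to a central quotient with divisible kernel lift to a Schur cover. -/
theorem exists_lift_of_cover (hA : HasSchurMultiplier Q A) {Γ : Type*} [Group Γ] {σ : Γ →* Q}
    (hσ : IsStemExtension σ) (h : Nat.card A ≤ Nat.card σ.ker) {Y P : Type*} [Group Y] [Group P]
    (ξ : Y →* P) (hs : Function.Surjective ξ) (hξ : ξ.ker ≤ Subgroup.center Y)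
    (hD : ∀ n : ℕ, n ≠ 0 → ∀ d : ξ.ker, ∃ e : ξ.ker, e ^ n = d) (γ : Q →* P) :
    ∃ ρ : Γ →* Y, ξ.comp ρ = γ.comp σ := by
  have := finite_base_of_hasSchurMultiplier hA
  obtain ⟨ψ, hψ⟩ := exists_lift (taut Q) σ hσ.1
  obtain ⟨φ, hφ⟩ := exists_lift (γ.comp (taut Q)) ξ hs
  have hψs : Function.Surjective (σ.comp ψ) := hψ ▸ taut_surjective Q
  have hψs' := surjective_of_stem hσ ψ hψs
  have h1 := cover_ker_le hA hσ h ψ hψs (taut Q).ker (by rw [hψ])
  have h2 := commutator_le_ker_of_central ξ hξ φ (R := (taut Q).ker) (by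
    rw [hφ]
    intro x hx
    show γ (taut Q x) = 1
    rw [hx, map_one])
  have h3 : ψ.ker ≤ (taut Q).ker := by
    intro x hx
    rw [← hψ]
    show σ (ψ x) = 1
    rw [hx, map_one]
  have h4 : ∀ s : ψ.ker, φ s ∈ ξ.ker := fun s => by
    have := DFunLike.congr_fun hφ (s : FreeGroup Q)
    simp only [MonoidHom.comp_apply] at this
    rw [MonoidHom.mem_ker, this, h3 s.2, map_one]
  letI := centralCommGroup ξ.ker hξ
  let θ : ψ.ker →* ξ.ker := (φ.comp ψ.ker.subtype).codRestrict _ h4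
  obtain ⟨μ, hμ⟩ := exists_extend_ab hD ψ.ker θ (fun s hs => Subtype.ext (h2 (h1 ⟨s.2, h3 s.2, hs⟩)))
  have h5 : ψ.ker ≤ (twist φ ξ.ker hξ μ).ker := by
    intro s hs
    rw [MonoidHom.mem_ker, twist_apply, hμ ⟨s, hs⟩]
    exact mul_inv_cancel _
  refine ⟨ψ.liftOfSurjective hψs' ⟨_, h5⟩, ?_⟩
  ext x
  obtain ⟨f, rfl⟩ := hψs' x
  simp only [MonoidHom.comp_apply, MonoidHom.liftOfRightInverse_comp_apply, twist_apply, map_mul,
    map_inv]
  rw [MonoidHom.mem_ker.1 (μ f).2, inv_one, mul_one]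
  have e1 := DFunLike.congr_fun hφ f
  have e2 := DFunLike.congr_fun hψ f
  simp only [MonoidHom.comp_apply] at e1 e2
  rw [e1, e2]

theorem center_GL_divisible (m : ℕ) (n : ℕ) (hn : n ≠ 0)
    (d : (QuotientGroup.mk' (Subgroup.center (GL (Fin m) ℂ))).ker) :
    ∃ e : (QuotientGroup.mk' (Subgroup.center (GL (Fin m) ℂ))).ker, e ^ n = d := by
  obtain ⟨d, hd⟩ := d
  have hd' := hd
  rw [QuotientGroup.ker_mk', Matrix.GeneralLinearGroup.center_eq_range_scalar] at hd'
  obtain ⟨c, rfl⟩ := hd'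
  obtain ⟨e, rfl⟩ := units_complex_divisible n hn c
  refine ⟨⟨Matrix.GeneralLinearGroup.scalar _ e, ?_⟩, Subtype.ext (by simp)⟩
  rw [QuotientGroup.ker_mk', Matrix.GeneralLinearGroup.center_eq_range_scalar]
  exact ⟨e, rfl⟩

/-- Projective representations lift to a Schur cover. -/
theorem exists_lift_projective (hA : HasSchurMultiplier Q A) {Γ : Type*} [Group Γ] {σ : Γ →* Q}
    (hσ : IsStemExtension σ) (h : Nat.card A ≤ Nat.card σ.ker) (n : ℕ)
    (γ : Q →* (GL (Fin n) ℂ ⧸ Subgroup.center (GL (Fin n) ℂ))) :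
    ∃ ρ : Γ →* GL (Fin n) ℂ, (QuotientGroup.mk' (Subgroup.center (GL (Fin n) ℂ))).comp ρ =
      γ.comp σ :=
  exists_lift_of_cover hA hσ h _ (QuotientGroup.mk'_surjective _) (by rw [QuotientGroup.ker_mk'])
    (center_GL_divisible n) γ

end

section
variable {Γ : Type*} [Group Γ]

/-- An irreducible character as the trace of a matrix representation in which central elements
are scalars. -/
theorem exists_matrix_rep {χ : Γ → ℂ} (hχ : IsIrrCharacter Γ χ) :
    ∃ (n : ℕ) (ρ : Γ →* GL (Fin n) ℂ) (lam : Subgroup.center Γ →* ℂˣ), 0 < n ∧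
      (∀ z : Subgroup.center Γ, ρ z = Matrix.GeneralLinearGroup.scalar _ (lam z)) ∧
      ∀ g, χ g = Matrix.trace (ρ g : Matrix (Fin n) (Fin n) ℂ) := by
  obtain ⟨n, hn, hn'⟩ := H6.irr_one_pos hχ
  obtain ⟨m, r, hr, rfl⟩ := hχ
  have hm : m = n := by
    rw [Representation.char_one] at hn'
    simpa using hn'
  subst hm
  let ρ : Γ →* GL (Fin m) ℂ :=
    ((LinearMap.toMatrixAlgEquiv' (R := ℂ) (n := Fin m)).toMonoidHom.comp r).toHomUnits
  have hρ : ∀ g, (ρ g : Matrix (Fin m) (Fin m) ℂ) = LinearMap.toMatrix' (r g) := fun g => rfl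
  have hc : ∀ z : Subgroup.center Γ, ∃ c : ℂˣ, ρ z = Matrix.GeneralLinearGroup.scalar _ c := by
    intro z
    obtain ⟨c, hc⟩ := H6.schur_scalar r (r z) (fun g => by
      change r z * r g = r g * r z
      rw [← map_mul, ← map_mul, Subgroup.mem_center_iff.1 z.2 g])
    have h1 : ρ z ∈ Subgroup.center (GL (Fin m) ℂ) := by
      rw [Matrix.GeneralLinearGroup.mem_center_iff_val_mem_range_scalar, hρ, hc]
      refine ⟨c, ?_⟩
      rw [map_smul, LinearMap.toMatrix'_id, Matrix.scalar_apply, Matrix.smul_one_eq_diagonal]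
    rw [Matrix.GeneralLinearGroup.center_eq_range_scalar] at h1
    obtain ⟨c, hc⟩ := h1
    exact ⟨c, hc.symm⟩
  choose c hc using hc
  have : Nonempty (Fin m) := ⟨⟨0, hn⟩⟩
  have hinj : Function.Injective (Matrix.GeneralLinearGroup.scalar (Fin m) : ℂˣ →* GL (Fin m) ℂ) := by
    intro a b hab
    have := congrArg (fun g : GL (Fin m) ℂ => (g : Matrix (Fin m) (Fin m) ℂ)) hab
    exact Units.ext (Matrix.scalar_inj.1 this)
  let lam : Subgroup.center Γ →* ℂˣ :=
    { toFun := c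
      map_one' := hinj (by rw [← hc]; simp)
      map_mul' := fun a b => hinj (by rw [map_mul, ← hc, ← hc, ← hc]; simp) }
  refine ⟨m, ρ, lam, hn, hc, fun g => ?_⟩
  rw [hρ, Representation.character, LinearMap.trace_eq_matrix_trace ℂ (Pi.basisFun ℂ (Fin m))]
  rfl

theorem exists_rep_ne_one [Finite Γ] {z : Γ} (hz : z ≠ 1) :
    ∃ (n : ℕ) (ρ : Γ →* GL (Fin n) ℂ),
      (∀ w ∈ Subgroup.center Γ, ρ w ∈ Subgroup.center (GL (Fin n) ℂ)) ∧ ρ z ≠ 1 := by
  by_contra hcon
  push Not at hcon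
  have h1 := H6.sum_irr_one_mul hz
  have h2 := H6.sum_irr_one_sq (G := Γ)
  have h3 : ∀ χ : IrrCharacter Γ, (χ : Γ → ℂ) z = (χ : Γ → ℂ) 1 := by
    intro χ
    obtain ⟨n, ρ, lam, -, h4, h5⟩ := exists_matrix_rep χ.2
    have := hcon n ρ (fun w hw => by
      rw [h4 ⟨w, hw⟩, Matrix.GeneralLinearGroup.center_eq_range_scalar]
      exact ⟨_, rfl⟩)
    rw [h5, h5, this, map_one]
  simp only [h3, ← sq] at h1
  rw [h1] at h2
  exact (Nat.cast_ne_zero.2 Nat.card_pos.ne') h2.symm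

/-- Schur: if `K ≤ Z(Γ) ∩ Γ'` then the square of the order of any linear character of `K` divides
the index of `K`. -/
theorem orderOf_sq_dvd_index [Finite Γ] (K : Subgroup Γ) (h1 : K ≤ Subgroup.center Γ)
    (h2 : K ≤ commutator Γ) (μ : K →* ℂˣ) : orderOf μ ^ 2 ∣ K.index := by
  classical
  have := Fintype.ofFinite K
  choose n ρ lam hn hlam htr using fun χ : IrrCharacter Γ => exists_matrix_rep χ.2
  let lam' : IrrCharacter Γ → (K →* ℂˣ) := fun χ => (lam χ).comp (Subgroup.inclusion h1)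
  have hval : ∀ (χ : IrrCharacter Γ) (k : K), (χ : Γ → ℂ) k = n χ * (lam' χ k : ℂ) := by
    intro χ k
    have := hlam χ (Subgroup.inclusion h1 k)
    rw [htr]
    change ρ χ (k : Γ) = _ at this
    rw [this]
    simp [Matrix.GeneralLinearGroup.scalar, Matrix.scalar_apply, lam']
  have hone : ∀ χ : IrrCharacter Γ, (χ : Γ → ℂ) 1 = n χ := by
    intro χ
    simpa using hval χ 1
  have hdvd : ∀ χ : IrrCharacter Γ, orderOf (lam' χ) ∣ n χ := by
    intro χ
    rw [orderOf_dvd_iff_pow_eq_one]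
    ext k
    have h3 : Matrix.GeneralLinearGroup.det (ρ χ k) = 1 := by
      have : commutator Γ ≤ (Matrix.GeneralLinearGroup.det.comp (ρ χ)).ker :=
        Abelianization.commutator_subset_ker _
      exact this (h2 k.2)
    have h4 := hlam χ (Subgroup.inclusion h1 k)
    change ρ χ (k : Γ) = _ at h4
    rw [h4, Matrix.GeneralLinearGroup.det_scalar, Fintype.card_fin] at h3
    simpa [lam'] using congrArg Units.val h3
  have hsum : ∀ ν : K →* ℂˣ, ∑ k : K, ((ν k : ℂˣ) : ℂ) = if ν = 1 then (Nat.card K : ℂ) else 0 := by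
    intro ν
    split_ifs with h
    · subst h; simp
    · have h5 : (Units.coeHom ℂ).comp ν ≠ 1 := by
        intro h6
        apply h
        ext k
        exact DFunLike.congr_fun h6 k
      exact sum_hom_units_eq_zero _ h5
  have key : ∑ k : K, ((μ k)⁻¹ : ℂˣ) * ∑ χ : IrrCharacter Γ, (χ : Γ → ℂ) 1 * (χ : Γ → ℂ) k
      = (Nat.card Γ : ℂ) := by
    rw [Finset.sum_eq_single 1]
    · simp only [map_one, inv_one, Units.val_one, one_mul, OneMemClass.coe_one, ← sq]
      exact H6.sum_irr_one_sq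
    · intro k _ hk
      rw [H6.sum_irr_one_mul (fun h => hk (Subtype.ext h)), mul_zero]
    · simp
  have key2 : ∑ k : K, ((μ k)⁻¹ : ℂˣ) * ∑ χ : IrrCharacter Γ, (χ : Γ → ℂ) 1 * (χ : Γ → ℂ) k
      = ((∑ χ : IrrCharacter Γ, if lam' χ = μ then n χ ^ 2 else 0 : ℕ) : ℂ) * Nat.card K := by
    simp only [Finset.mul_sum]
    rw [Finset.sum_comm, Nat.cast_sum, Finset.sum_mul]
    refine Finset.sum_congr rfl fun χ _ => ?_
    have h7 := hsum (μ⁻¹ * lam' χ)
    have h8 : (μ⁻¹ * lam' χ = 1) ↔ lam' χ = μ := 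
      (inv_mul_eq_one (a := μ) (b := lam' χ)).trans eq_comm
    simp only [h8] at h7
    calc ∑ k : K, ((μ k)⁻¹ : ℂˣ) * ((χ : Γ → ℂ) 1 * (χ : Γ → ℂ) k)
        = (n χ : ℂ) ^ 2 * ∑ k : K, (((μ⁻¹ * lam' χ) k : ℂˣ) : ℂ) := by
          rw [Finset.mul_sum]
          refine Finset.sum_congr rfl fun k _ => ?_
          rw [hone, hval]
          simp only [MonoidHom.mul_apply, MonoidHom.inv_apply, Units.val_mul]
          ring
      _ = _ := by
          rw [h7]
          split_ifs <;> simp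
  rw [key, ← K.index_mul_card, Nat.cast_mul] at key2
  have h9 := mul_right_cancel₀ (Nat.cast_ne_zero.2 (Nat.card_pos (α := K)).ne') key2
  rw [Nat.cast_inj] at h9
  rw [h9]
  refine Finset.dvd_sum fun χ _ => ?_
  split_ifs with h
  · rw [← h]; exact pow_dvd_pow_of_dvd (hdvd χ) 2
  · exact dvd_zero _

end

section
variable {Q : Type u} [Group Q] {A : Type*} [CommGroup A]

/-- A stem extension to which all projective representations lift is a Schur cover. -/
theorem card_le_of_lift (hA : HasSchurMultiplier Q A) {Γ : Type*} [Group Γ] {σ : Γ →* Q}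
    (hσ : IsStemExtension σ)
    (hlift : ∀ (n : ℕ) (γ : Q →* (GL (Fin n) ℂ ⧸ Subgroup.center (GL (Fin n) ℂ))),
      ∃ ρ : Γ →* GL (Fin n) ℂ, (QuotientGroup.mk' (Subgroup.center (GL (Fin n) ℂ))).comp ρ =
        γ.comp σ) : Nonempty (σ.ker ≃* A) := by
  have := finite_base_of_hasSchurMultiplier hA
  obtain ⟨Δ, _, _, τ, hτ, ⟨e⟩⟩ := hA.1
  obtain ⟨ψ, hψ⟩ := exists_lift (taut Q) σ hσ.1
  obtain ⟨φ, hφ⟩ := exists_lift (taut Q) τ hτ.1
  have hψs : Function.Surjective (σ.comp ψ) := hψ ▸ taut_surjective Q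
  have hφs : Function.Surjective (τ.comp φ) := hφ ▸ taut_surjective Q
  have h1 := cover_ker_le hA hτ (Nat.card_congr e.toEquiv).ge φ hφs (taut Q).ker (by rw [hφ])
  obtain ⟨e'⟩ := nonempty_equiv_hopf hA (taut Q) (taut_surjective Q) _ rfl
  have h2 : ψ.ker ⊓ ((taut Q).ker ⊓ commutator _) ≤ ⁅(taut Q).ker, (⊤ : Subgroup (FreeGroup Q))⁆ := by
    rintro r ⟨hr1, hr2⟩
    refine h1 ⟨?_, hr2⟩
    by_contra hne
    obtain ⟨n, ρ, hρ1, hρ2⟩ := exists_rep_ne_one (z := φ r) hne
    have h3 : τ.ker ≤ ((QuotientGroup.mk' (Subgroup.center (GL (Fin n) ℂ))).comp ρ).ker := by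
      intro w hw
      exact (QuotientGroup.eq_one_iff _).2 (hρ1 w (hτ.2.1 hw))
    obtain ⟨ρ', hρ'⟩ := hlift n (τ.liftOfSurjective hτ.1 ⟨_, h3⟩)
    have h4 := eq_on_commutator (QuotientGroup.mk' (Subgroup.center (GL (Fin n) ℂ)))
      (by rw [QuotientGroup.ker_mk']) (ρ.comp φ) (ρ'.comp ψ) (by
        rw [← MonoidHom.comp_assoc, ← MonoidHom.comp_assoc, hρ', MonoidHom.comp_assoc (f := ψ), hψ,
          ← hφ, ← MonoidHom.comp_assoc, MonoidHom.liftOfRightInverse_comp]) hr2.2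
    apply hρ2
    have h5 : ψ r = 1 := hr1
    simpa [h5] using h4
  obtain ⟨e''⟩ := ker_equiv_hopf hσ ψ hψs (taut Q).ker (by rw [hψ]) h2
  exact ⟨e''.symm.trans e'.symm⟩

end

end H78.Schur
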