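import Mathlib
import Cfsg.Agent.Lib.Schur.Proj

/-! Restriction and transfer for Schur multipliers. -/

set_option autoImplicit false

namespace H78.Schur

open Cfsg
open scoped commutatorElement

universe u v w

/-- The transfer of an element of a normal subgroup contained in `V`. -/
theorem transfer_eq_prod_of_normal {F : Type*} [Group F] (V R : Subgroup F) [V.FiniteIndex]
    [hR : R.Normal] (hRV : R ≤ V) {A : Type*} [CommGroup A] (ϕ : V →* A) (r : F) (hr : r ∈ R)
    [Fintype (F ⧸ V)] :
    MonoidHom.transfer ϕ r = ∏ q : F ⧸ V, ϕ ⟨q.out⁻¹ * r * q.out, hRV (hR.conj_mem' r hr _)⟩ := by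
  let T : V.LeftTransversal :=
    ⟨Set.range (Quotient.out : F ⧸ V → F), Subgroup.isComplement_range_left Quotient.out_eq'⟩
  have hT : ∀ q, (T.2.leftQuotientEquiv q : F) = q.out := fun q =>
    Subgroup.IsComplement.leftQuotientEquiv_apply Quotient.out_eq' q
  rw [MonoidHom.transfer_def ϕ T, Subgroup.leftTransversals.diff]
  convert Finset.prod_congr rfl (fun q _ => ?_)
  congr 2
  have h1 : r⁻¹ • q = q := by
    conv_lhs => rw [← q.out_eq']
    conv_rhs => rw [← q.out_eq']
    change ((r⁻¹ * q.out : F) : F ⧸ V) = (q.out : F ⧸ V)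
    rw [QuotientGroup.eq]
    have := hRV (hR.conj_mem' r hr q.out)
    simpa [mul_assoc] using this
  rw [Subgroup.smul_apply_eq_smul_apply_inv_smul, h1, hT, smul_eq_mul, mul_assoc]

section
variable {F : Type*} [Group F] (V R : Subgroup F) [hR : R.Normal] (hRV : R ≤ V)

/-- The image of `R` in `V / [R, V]`. -/
def normTarget : Subgroup (V ⧸ ⁅R.subgroupOf V, (⊤ : Subgroup V)⁆) :=
  (R.subgroupOf V).map (QuotientGroup.mk' _)

theorem normTarget_le_center : normTarget V R ≤ Subgroup.center _ := by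
  rintro _ ⟨r, hr, rfl⟩
  exact mk_mem_center _ hr

instance normTargetCommGroup : CommGroup (normTarget V R) :=
  centralCommGroup _ (normTarget_le_center V R)

/-- conjugation followed by projection -/
def conjProj (t : F) : R →* normTarget V R where
  toFun r := ⟨QuotientGroup.mk' _ (⟨t⁻¹ * r * t, hRV (hR.conj_mem' r r.2 t)⟩ : V),
    ⟨_, hR.conj_mem' r r.2 t, rfl⟩⟩
  map_one' := by
    ext
    simp only [OneMemClass.coe_one, mul_one, inv_mul_cancel]
    exact map_one _
  map_mul' a b := by
    ext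
    simp only [Subgroup.coe_mul, ← map_mul]
    congr 1
    ext
    simp only [Subgroup.coe_mul]
    group

theorem conjProj_mul (t : F) {v : F} (hv : v ∈ V) :
    conjProj V R hRV (t * v) = conjProj V R hRV t := by
  ext r
  have h1 := Subgroup.mem_center_iff.1 (normTarget_le_center V R (conjProj V R hRV t r).2)
    (QuotientGroup.mk' _ (⟨v, hv⟩ : V))
  have h2 : (conjProj V R hRV (t * v) r : V ⧸ ⁅R.subgroupOf V, (⊤ : Subgroup V)⁆) =
      (QuotientGroup.mk' ⁅R.subgroupOf V, (⊤ : Subgroup V)⁆ (⟨v, hv⟩ : V))⁻¹ * (conjProj V R hRV t r *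
        QuotientGroup.mk' ⁅R.subgroupOf V, (⊤ : Subgroup V)⁆ (⟨v, hv⟩ : V)) := by
    simp only [conjProj, MonoidHom.coe_mk, OneHom.coe_mk, ← map_mul, ← map_inv]
    congr 1
    ext
    simp only [Subgroup.coe_mul, Subgroup.coe_inv]
    group
  rw [h2, ← h1, inv_mul_cancel_left]

theorem conjProj_out (t : F) :
    conjProj V R hRV ((t : F ⧸ V).out) = conjProj V R hRV t := by
  obtain ⟨v, hv⟩ := QuotientGroup.mk_out_eq_mul V t
  rw [hv, conjProj_mul V R hRV t v.2]

theorem conjProj_conj (t f : F) (r : R) :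
    conjProj V R hRV t ⟨f * r * f⁻¹, hR.conj_mem r r.2 f⟩ = conjProj V R hRV (f⁻¹ * t) r := by
  ext
  simp only [conjProj, MonoidHom.coe_mk, OneHom.coe_mk]
  congr 2
  group

variable [Fintype (F ⧸ V)]

/-- the norm map -/
noncomputable def normMap : R →* normTarget V R := ∏ q : F ⧸ V, conjProj V R hRV q.out

theorem normMap_apply (r : R) : normMap V R hRV r = ∏ q : F ⧸ V, conjProj V R hRV q.out r :=
  MonoidHom.finsetProd_apply _ _ _

theorem normMap_conj (f : F) (r : R) :
    normMap V R hRV ⟨f * r * f⁻¹, hR.conj_mem r r.2 f⟩ = normMap V R hRV r := by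
  rw [normMap_apply, normMap_apply]
  refine Fintype.prod_equiv (MulAction.toPerm f⁻¹) _ _ fun q => ?_
  rw [conjProj_conj, ← conjProj_out V R hRV (f⁻¹ * q.out)]
  congr 3
  conv_rhs => rw [← q.out_eq']
  rfl

theorem normMap_eq_one (r : R) (hr : (r : F) ∈ ⁅R, (⊤ : Subgroup F)⁆) : normMap V R hRV r = 1 := by
  have : ⁅R, (⊤ : Subgroup F)⁆ ≤ (normMap V R hRV).ker.map R.subtype := by
    rw [Subgroup.commutator_le]
    intro a ha f _
    refine ⟨⟨a, ha⟩ * ⟨f * (⟨a, ha⟩⁻¹ : R) * f⁻¹, hR.conj_mem _ (⟨a, ha⟩⁻¹ : R).2 f⟩, ?_, ?_⟩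
    · rw [SetLike.mem_coe, MonoidHom.mem_ker, map_mul, normMap_conj, ← map_mul, mul_inv_cancel,
        map_one]
    · simp [commutatorElement_def, mul_assoc]
  obtain ⟨r', hr', h⟩ := this hr
  have : r' = r := Subtype.ext h
  exact this ▸ hr'

theorem normMap_mem_hopf (r : R) (hr : (r : F) ∈ commutator F) :
    (normMap V R hRV r : V ⧸ ⁅R.subgroupOf V, (⊤ : Subgroup V)⁆) ∈ hopf (R.subgroupOf V) := by
  have : V.FiniteIndex := Subgroup.finiteIndex_of_finite_quotient
  obtain ⟨x, hx, hxr⟩ := (normMap V R hRV r).2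
  refine ⟨x, ⟨hx, ?_⟩, hxr⟩
  have hN : ⁅R.subgroupOf V, (⊤ : Subgroup V)⁆ ≤ (Abelianization.of : V →* Abelianization V).ker := by
    rw [Abelianization.ker_of]
    exact Subgroup.commutator_mono le_top le_top
  let φ : normTarget V R →* Abelianization V :=
    (QuotientGroup.lift _ Abelianization.of hN).comp (normTarget V R).subtype
  have h1 : φ (normMap V R hRV r) = Abelianization.of x := by
    show QuotientGroup.lift _ Abelianization.of hN (normMap V R hRV r : _ ⧸ _) = _
    rw [← hxr]
    rfl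
  have h2 : φ (normMap V R hRV r) = MonoidHom.transfer (Abelianization.of : V →* _) r := by
    rw [normMap_apply, map_prod, transfer_eq_prod_of_normal V R hRV _ r r.2]
    rfl
  have h3 : MonoidHom.transfer (Abelianization.of : V →* Abelianization V) r = 1 :=
    Abelianization.commutator_subset_ker _ hr
  show x ∈ commutator V
  rw [← Abelianization.ker_of, MonoidHom.mem_ker, ← h1, h2, h3]

include hRV in
theorem exists_res_tr : ∃ (i : hopf (R.subgroupOf V) →* hopf R) (tr : hopf R →* hopf (R.subgroupOf V)),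
    ∀ a, i (tr a) = a ^ V.index := by
  have h1 : ⁅R.subgroupOf V, (⊤ : Subgroup V)⁆ ≤
      ((QuotientGroup.mk' ⁅R, (⊤ : Subgroup F)⁆).comp V.subtype).ker := by
    rw [Subgroup.commutator_le]
    intro a ha b _
    rw [MonoidHom.mem_ker, MonoidHom.comp_apply, map_commutatorElement, QuotientGroup.mk'_apply,
      QuotientGroup.eq_one_iff]
    exact Subgroup.commutator_mem_commutator ha trivial
  let i : hopf (R.subgroupOf V) →* hopf R := (hopfMap _ _ h1).codRestrict _ (by
    rintro ⟨_, x, hx, rfl⟩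
    exact ⟨x, ⟨hx.1, map_mem_commutator V.subtype hx.2⟩, rfl⟩)
  letI := centralCommGroup (Subgroup.center (F ⧸ ⁅R, (⊤ : Subgroup F)⁆)) le_rfl
  let j : normTarget V R →* Subgroup.center (F ⧸ ⁅R, (⊤ : Subgroup F)⁆) :=
    ((QuotientGroup.lift _ _ h1).comp (normTarget V R).subtype).codRestrict _ (by
      rintro ⟨_, x, hx, rfl⟩
      exact mk_mem_center R hx)
  let s : ↥(R ⊓ commutator F) →* hopf R := (QuotientGroup.mk' _).subgroupMap _
  have hs : Function.Surjective s := MonoidHom.subgroupMap_surjective _ _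
  let n : ↥(R ⊓ commutator F) →* hopf (R.subgroupOf V) :=
    (((normTarget V R).subtype.comp (normMap V R hRV)).comp
      (Subgroup.inclusion inf_le_left)).codRestrict _ (fun x => normMap_mem_hopf V R hRV _ x.2.2)
  have hker : s.ker ≤ n.ker := by
    intro x hx
    have h2 : (x : F) ∈ ⁅R, (⊤ : Subgroup F)⁆ :=
      (QuotientGroup.eq_one_iff _).1 (congrArg Subtype.val hx)
    have h3 := normMap_eq_one V R hRV (Subgroup.inclusion inf_le_left x) h2
    have h4 := congrArg Subtype.val h3
    exact Subtype.ext h4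
  refine ⟨i, s.liftOfSurjective hs ⟨n, hker⟩, fun a => ?_⟩
  obtain ⟨x, rfl⟩ := hs a
  rw [MonoidHom.liftOfRightInverse_comp_apply]
  have h4 : j (normMap V R hRV (Subgroup.inclusion inf_le_left x)) =
      (⟨_, mk_mem_center R (inf_le_left (b := commutator F) x.2)⟩ : Subgroup.center _) ^ V.index := by
    rw [normMap_apply, map_prod, Subgroup.index, Nat.card_eq_fintype_card, ← Finset.card_univ,
      ← Finset.prod_const]
    refine Finset.prod_congr rfl fun q _ => Subtype.ext ?_
    have h5 := Subgroup.mem_center_iff.1 (mk_mem_center R x.2.1) (QuotientGroup.mk' _ q.out)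
    change QuotientGroup.mk' _ (q.out⁻¹ * x * q.out) = QuotientGroup.mk' _ (x : F)
    rw [map_mul, map_mul, mul_assoc, ← h5, map_inv, inv_mul_cancel_left]
  have h6 := congrArg Subtype.val h4
  exact Subtype.ext h6

end

/-- Corestriction and transfer between the multipliers of a group and of a subgroup. -/
theorem exists_res_tr_multiplier {G : Type u} [Group G] (U : Subgroup G) {A B : Type*}
    [CommGroup A] [CommGroup B] (hA : HasSchurMultiplier G A) (hB : HasSchurMultiplier U B) :
    ∃ (i : B →* A) (tr : A →* B), ∀ a, i (tr a) = a ^ U.index := by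
  have := finite_base_of_hasSchurMultiplier hA
  let V := U.comap (taut G)
  have hV : V.index = U.index := Subgroup.index_comap_of_surjective _ (taut_surjective G)
  have : V.FiniteIndex := ⟨by rw [hV]; exact Subgroup.FiniteIndex.index_ne_zero⟩
  have := V.fintypeQuotientOfFiniteIndex
  have hRV : (taut G).ker ≤ V := by
    intro x hx
    show taut G x ∈ U
    rw [hx]; exact U.one_mem
  obtain ⟨i, tr, h⟩ := exists_res_tr V (taut G).ker hRV
  obtain ⟨eA⟩ := nonempty_equiv_hopf hA (taut G) (taut_surjective G) _ rfl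
  obtain ⟨eB⟩ := nonempty_equiv_hopf hB ((taut G).subgroupComap U)
    (MonoidHom.subgroupComap_surjective_of_surjective _ _ (taut_surjective G))
    ((taut G).ker.subgroupOf V) (by
      ext x
      exact Subtype.ext_iff)
  refine ⟨eA.symm.toMonoidHom.comp (i.comp eB.toMonoidHom),
    eB.symm.toMonoidHom.comp (tr.comp eA.toMonoidHom), fun a => ?_⟩
  simp [h, hV]

end H78.Schur
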